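import Cfsg.Agent.H233.RC.Red

/-!
# S3510: `RCe` for the elements of `gammaPSL n F`, `n ≥ 3`, from the linear theorem and `FieldStmt`
-/

set_option autoImplicit false
set_option linter.unusedSectionVars false
open Cfsg

namespace Cfsg.Agent.H202.RC

open MulAction Cfsg.Agent.H106.RC Module Cfsg.Agent.H233.RC

/-- elements of `gammaPSL` are `Psi A * phi σ` -/
theorem gamma_form {F : Type} [Field F] [Fintype F] {n : ℕ} (hn : 3 ≤ n)
    {β : MulAut (Matrix.ProjectiveSpecialLinearGroup (Fin n) F)} (hβ : β ∈ Cfsg.gammaPSL n F) :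
    ∃ (A : GL (Fin n) F) (σ : F ≃+* F), β = H199.PslAut.Psi n F A * H199.PslAut.phi n F σ := by
  have hphi : ∀ (σ : F ≃+* F) (B : GL (Fin n) F), ∃ B' : GL (Fin n) F,
      H199.PslAut.phi n F σ * H199.PslAut.Psi n F B = H199.PslAut.Psi n F B' * H199.PslAut.phi n F σ := by
    intro σ B
    let B' : GL (Fin n) F := Units.map (σ.mapMatrix : Matrix (Fin n) (Fin n) F ≃+* Matrix (Fin n) (Fin n) F).toMonoidHom B
    refine ⟨B', ?_⟩
    apply MulEquiv.ext
    intro t
    obtain ⟨S, rfl⟩ := QuotientGroup.mk_surjective t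
    let T : Matrix.SpecialLinearGroup (Fin n) F := ⟨(B : Matrix (Fin n) (Fin n) F) * S.1 *
      ((B⁻¹ : GL (Fin n) F) : Matrix (Fin n) (Fin n) F), by
        rw [Matrix.det_mul, Matrix.det_mul, S.2, mul_one, ← Matrix.det_mul, ← Units.val_mul, mul_inv_cancel,
          Units.val_one, Matrix.det_one]⟩
    have e1 : (H199.PslAut.Psi n F B) (QuotientGroup.mk S) = QuotientGroup.mk T := by
      have h := (H199.PslAut.innerDiag_iff (H199.PslAut.Psi n F B)).2 ⟨B, rfl⟩
      have h2 := (H199.PslAut.induced_iff B 1 (H199.PslAut.Psi n F B)).2 (by rw [map_one, mul_one])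
      exact h2 S T rfl
    have hmap : ∀ M : Matrix.SpecialLinearGroup (Fin n) F, (M.1.map σ).det = 1 := by
      intro M
      have := σ.toRingHom.map_det M.1
      rw [M.2, map_one] at this
      exact this.symm
    have e2 : ∀ M : Matrix.SpecialLinearGroup (Fin n) F,
        (H199.PslAut.phi n F σ) (QuotientGroup.mk M) = QuotientGroup.mk ⟨M.1.map σ, hmap M⟩ := by
      intro M
      exact (H199.PslAut.std_iff σ _).2 rfl M ⟨M.1.map σ, hmap M⟩ rfl
    rw [MulAut.mul_apply, MulAut.mul_apply, e1, e2, e2]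
    have h3 := (H199.PslAut.induced_iff B' 1 (H199.PslAut.Psi n F B')).2 (by rw [map_one, mul_one])
    symm
    apply h3
    change (T.1.map σ) = (B' : Matrix (Fin n) (Fin n) F) * ((S.1.map σ).map (1 : F ≃+* F)) *
      ((B'⁻¹ : GL (Fin n) F) : Matrix (Fin n) (Fin n) F)
    have h4 : (S.1.map σ).map (1 : F ≃+* F) = S.1.map σ := by
      ext i j; rfl
    have h5 : (B' : Matrix (Fin n) (Fin n) F) = (B : Matrix (Fin n) (Fin n) F).map σ := rfl
    have h6 : ((B'⁻¹ : GL (Fin n) F) : Matrix (Fin n) (Fin n) F) =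
        ((B⁻¹ : GL (Fin n) F) : Matrix (Fin n) (Fin n) F).map σ := rfl
    rw [h4, h5, h6, Matrix.map_mul, Matrix.map_mul]
  have hβ' := hβ
  unfold Cfsg.gammaPSL Cfsg.autSubgroupOf at hβ'
  induction hβ' using Subgroup.closure_induction with
  | mem β h =>
    obtain ⟨A, σ, h⟩ := h
    exact ⟨A, σ, (H199.PslAut.induced_iff A σ β).1 h⟩
  | one => exact ⟨1, 1, by rw [map_one, map_one, mul_one]⟩
  | mul β γ h1 h2 ih1 ih2 =>
    obtain ⟨A, σ, rfl⟩ := ih1 h1
    obtain ⟨B, τ, rfl⟩ := ih2 h2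
    obtain ⟨B', hB'⟩ := hphi σ B
    refine ⟨A * B', σ * τ, ?_⟩
    rw [map_mul, map_mul]
    calc _ = H199.PslAut.Psi n F A * (H199.PslAut.phi n F σ * H199.PslAut.Psi n F B) *
          H199.PslAut.phi n F τ := by group
      _ = _ := by rw [hB']; group
  | inv β h1 ih =>
    obtain ⟨A, σ, rfl⟩ := ih h1
    obtain ⟨B', hB'⟩ := hphi σ⁻¹ A⁻¹
    refine ⟨B', σ⁻¹, ?_⟩
    rw [← hB', mul_inv_rev, map_inv, map_inv]

/-- `RCe` for the semilinear automorphisms -/
theorem rce_gamma (hF : FieldStmt)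
    (hL : ∀ (F V G Ω ι : Type) [Field F] [Finite F] [AddCommGroup V] [Module F V] [Module.Finite F V] [Group G]
      [Finite G] [Finite Ω] [Nonempty Ω] [MulAction G Ω] [Finite ι] (N : Subgroup G) (κ : SLV F V →* G) (x : ι → G)
      (r : ι → ℕ) (a : ι → V ≃ₗ[F] V) (_ : LinCov Ω N κ x r a) (_ : 3 ≤ finrank F V)
      (_ : ¬ (Nat.card F = 2 ∧ finrank F V = 4)) (_ : IH (Nat.card N)), False)
    {F : Type} [Field F] [Fintype F] {n : ℕ} (hn : 3 ≤ n)
    (hP : IsSimpleGroup (Matrix.ProjectiveSpecialLinearGroup (Fin n) F))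
    (hPn : ¬ IsMulCommutative (Matrix.ProjectiveSpecialLinearGroup (Fin n) F))
    (hPE : ¬ Exc (Matrix.ProjectiveSpecialLinearGroup (Fin n) F))
    (hIH : IH (Nat.card (Matrix.ProjectiveSpecialLinearGroup (Fin n) F)))
    {g : MulAut (Matrix.ProjectiveSpecialLinearGroup (Fin n) F)} (hg : g ∈ Cfsg.gammaPSL n F) :
    RCe (Matrix.ProjectiveSpecialLinearGroup (Fin n) F) g := by
  have hno4 : ¬ (n = 4 ∧ Nat.card F = 2) := by
    rintro ⟨rfl, h1⟩
    apply hPE
    rw [Nat.card_eq_fintype_card] at h1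
    exact Or.inr (Or.inr (S0256.result h1))
  have hfin : Finite (Matrix.ProjectiveSpecialLinearGroup (Fin n) F) :=
    Quotient.finite (QuotientGroup.leftRel _)
  apply rce_of_set hP hPn
  intro G _ _ Ω _ _ _ N hE e y hy
  by_contra hno
  push Not at hno
  obtain ⟨ι, hι, x, r, h1, h2, h3, h4⟩ := exists_cover hno
  have hyg : autE hE.norm e y = g := by
    apply MulEquiv.ext
    intro t
    obtain ⟨m, rfl⟩ := e.surjective t
    rw [autE_apply]
    exact hy m _ rfl
  have hall : ∀ i, ∃ (A : GL (Fin n) F) (σ : F ≃+* F),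
      autE hE.norm e (x i) = H199.PslAut.Psi n F A * H199.PslAut.phi n F σ := by
    intro i
    apply gamma_form hn
    obtain ⟨k, hk⟩ := Subgroup.mem_zpowers_iff.1 (h3 i)
    rw [← hk, map_zpow, hyg]
    exact Subgroup.zpow_mem _ hg k
  by_cases hfi : ∃ i, ∃ (A : GL (Fin n) F) (σ : F ≃+* F),
      autE hE.norm e (x i) = H199.PslAut.Psi n F A * H199.PslAut.phi n F σ ∧ σ ≠ 1
  · exact hF F n hn G Ω N hE e hPE hIH ι x r h1 h2 h4 hall hfi
  · apply lin_noCov hL hn hE e hno4 hIH h1 h2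
    intro i
    obtain ⟨A, σ, hA⟩ := hall i
    have hσ : σ = 1 := by
      by_contra hne
      exact hfi ⟨i, A, σ, hA, hne⟩
    refine ⟨A, ?_⟩
    rw [hA, hσ, map_one, mul_one]

end Cfsg.Agent.H202.RC
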