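import Cfsg.Agent.H202.RC.AutE
import Cfsg.Agent.H199.PslAut

/-!
# S3510, PSL_n, n ≥ 3: statements of the field row (helper930) and of the graph row (helper384)
-/

set_option autoImplicit false
open Cfsg

namespace Cfsg.Agent.H202.RC

open MulAction Cfsg.Agent.H106.RC

/-- field type (helper930, box A5): some `x i` induces `Psi A * phi σ`, `σ ≠ 1`, and no `x i` is of graph type -/
def FieldStmt : Prop :=
  ∀ (F : Type) [Field F] [Fintype F] (n : ℕ) (_ : 3 ≤ n) (G : Type) [Group G] [Finite G] (Ω : Type) [Finite Ω]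
    [Nonempty Ω] [MulAction G Ω] (N : Subgroup G) (hE : Env G Ω N)
    (e : N ≃* Matrix.ProjectiveSpecialLinearGroup (Fin n) F) (_ : ¬ Exc (Matrix.ProjectiveSpecialLinearGroup (Fin n) F))
    (_ : IH (Nat.card (Matrix.ProjectiveSpecialLinearGroup (Fin n) F)))
    (ι : Type) [Finite ι] (x : ι → G) (r : ι → ℕ), PF x r → Cov Ω x → CovMin Ω x →
    (∀ i, ∃ (A : GL (Fin n) F) (σ : F ≃+* F), autE hE.norm e (x i) = H199.PslAut.Psi n F A * H199.PslAut.phi n F σ) →
    (∃ i, ∃ (A : GL (Fin n) F) (σ : F ≃+* F), autE hE.norm e (x i) = H199.PslAut.Psi n F A * H199.PslAut.phi n F σ ∧ σ ≠ 1) →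
    False

/-- graph type (row B, helper384): some `x i` induces `Psi A * phi σ * iot` -/
def GraphStmt : Prop :=
  ∀ (F : Type) [Field F] [Fintype F] (n : ℕ) (_ : 3 ≤ n) (G : Type) [Group G] [Finite G] (Ω : Type) [Finite Ω]
    [Nonempty Ω] [MulAction G Ω] (N : Subgroup G) (hE : Env G Ω N)
    (e : N ≃* Matrix.ProjectiveSpecialLinearGroup (Fin n) F) (_ : ¬ Exc (Matrix.ProjectiveSpecialLinearGroup (Fin n) F))
    (_ : IH (Nat.card (Matrix.ProjectiveSpecialLinearGroup (Fin n) F)))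
    (ι : Type) [Finite ι] (x : ι → G) (r : ι → ℕ), PF x r → Cov Ω x → CovMin Ω x →
    (∃ i, ∃ (A : GL (Fin n) F) (σ : F ≃+* F),
      autE hE.norm e (x i) = H199.PslAut.Psi n F A * H199.PslAut.phi n F σ * H199.PslAut.iot n F) → False

end Cfsg.Agent.H202.RC
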