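import Cfsg.Agent.H233.RC.RedA
import Cfsg.Agent.H233.RC.Stmts
import Cfsg.Agent.S0256

/-!
# S3510, box RED: `exists_frame`, `lifts_of`, `exists_linCov`, `row_psl`
-/

set_option autoImplicit false
set_option linter.unusedSectionVars false
open Cfsg

namespace Cfsg.Agent.H202.RC

open MulAction Cfsg.Agent.H106.RC Module Cfsg.Agent.H233.RC

section red

variable {F G Ω ι : Type} [Field F] [Fintype F] {n : ℕ} [Group G] [Finite G] [Finite Ω] [Nonempty Ω] [MulAction G Ω]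
  [Finite ι] {N : Subgroup G}

/-- (R1) the frame -/
theorem exists_frame (_hn : 3 ≤ n) (hE : Env G Ω N) (e : N ≃* Matrix.ProjectiveSpecialLinearGroup (Fin n) F) :
    ∃ κ : SLV F (Fin n → F) →* G, Frame Ω N κ ∧
      ∀ A : Matrix.SpecialLinearGroup (Fin n) F, κ (slE (Pi.basisFun F (Fin n)) A) =
        e.symm (QuotientGroup.mk A) :=
  ⟨kap e, frame_of_iso hE e, kap_slE e⟩

/-- (R2) semilinear lifts -/
theorem lifts_of (_hn : 3 ≤ n) (hE : Env G Ω N) (e : N ≃* Matrix.ProjectiveSpecialLinearGroup (Fin n) F)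
    {κ : SLV F (Fin n → F) →* G} (hκ : ∀ A : Matrix.SpecialLinearGroup (Fin n) F,
      κ (slE (Pi.basisFun F (Fin n)) A) = e.symm (QuotientGroup.mk A)) {x : G} {A : GL (Fin n) F} {σ : F ≃+* F}
    (hx : autE hE.norm e x = H199.PslAut.Psi n F A * H199.PslAut.phi n F σ) (f : (Fin n → F) ≃+ (Fin n → F))
    (hf : ∀ v, f v = (A : Matrix (Fin n) (Fin n) F).mulVec (fun i => σ (v i))) : Lifts κ x f := by
  intro s s' hss
  obtain ⟨S, rfl⟩ := (slE (Pi.basisFun F (Fin n))).surjective s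
  obtain ⟨S', rfl⟩ := (slE (Pi.basisFun F (Fin n))).surjective s'
  rw [hκ, hκ, autE_symm hE.norm]
  congr 2
  apply liftAut_of_induced ((H199.PslAut.induced_iff A σ _).2 hx)
  intro v
  have h1 := hss v
  rw [hf, hf, slE_std, slE_std] at h1
  rw [semiMap_apply, semiMap_apply]
  exact h1

theorem semi_lift (hE : Env G Ω N) (e : N ≃* Matrix.ProjectiveSpecialLinearGroup (Fin n) F)
    {x : G} {A : GL (Fin n) F} {σ : F ≃+* F}
    (hx : autE hE.norm e x = H199.PslAut.Psi n F A * H199.PslAut.phi n F σ) :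
    Lifts (kap e) x (semiMap A σ) := by
  intro s s' hss
  obtain ⟨S, rfl⟩ := (slE (Pi.basisFun F (Fin n))).surjective s
  obtain ⟨S', rfl⟩ := (slE (Pi.basisFun F (Fin n))).surjective s'
  rw [kap_slE, kap_slE, autE_symm hE.norm]
  congr 2
  apply liftAut_of_induced ((H199.PslAut.induced_iff A σ _).2 hx)
  intro v
  rw [← slE_std, ← slE_std]
  exact hss v

/-- (R3) linear covers: the lifts can be chosen commuting -/
theorem exists_linCov (hn : 3 ≤ n) (hE : Env G Ω N) (e : N ≃* Matrix.ProjectiveSpecialLinearGroup (Fin n) F)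
    {x : ι → G} {r : ι → ℕ} (h1 : PF x r) (h2 : Cov Ω x) (h3 : CovMin Ω x)
    (hx : ∀ i, ∃ A : GL (Fin n) F, autE hE.norm e (x i) = H199.PslAut.Psi n F A) :
    ∃ (κ : SLV F (Fin n → F) →* G) (a : ι → (Fin n → F) ≃ₗ[F] (Fin n → F)), LinCov Ω N κ x r a := by
  have hd : finrank F (Fin n → F) = n := by rw [finrank_fintype_fun_eq_card, Fintype.card_fin]
  choose A hA using hx
  have hcov : SemiCov Ω N (kap e) x r (fun i => semiMap (A i) 1) (fun _ => 1) := by
    refine ⟨frame_of_iso hE e, h1, h2, h3, fun i => semiMap_smul (A i) 1, fun i => ?_⟩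
    apply semi_lift hE e
    rw [hA i, map_one, mul_one]
  exact ⟨kap e, _, hcov.linCov (by omega) fun i => rfl⟩

/-- every automorphism is `Psi A * phi σ` or `Psi A * phi σ * iot` -/
theorem aut_cases (hn : 3 ≤ n) (β : MulAut (Matrix.ProjectiveSpecialLinearGroup (Fin n) F)) :
    (∃ (A : GL (Fin n) F) (σ : F ≃+* F), β = H199.PslAut.Psi n F A * H199.PslAut.phi n F σ) ∨
      ∃ (A : GL (Fin n) F) (σ : F ≃+* F),
        β = H199.PslAut.Psi n F A * H199.PslAut.phi n F σ * H199.PslAut.iot n F := by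
  obtain ⟨p, hp⟩ := CharP.exists F
  obtain ⟨k, hpp, hk⟩ := FiniteField.card F p
  have : Fact p.Prime := ⟨hpp⟩
  obtain ⟨δ, φ, γ, σ, h1, h2, h3, h4⟩ := S2690.result (F := F) (p := p) (f := k) hk k.2 (by omega : 2 ≤ n)
    (fun h => by omega) β
  obtain ⟨A, hA⟩ := (H199.PslAut.innerDiag_iff δ).1 h1
  have hφ := (H199.PslAut.std_iff σ φ).1 h2
  rcases h3 with h3 | h3
  · left
    exact ⟨A, σ, by rw [h4, h3, mul_one, hA, hφ]⟩
  · right
    exact ⟨A, σ, by rw [h4, (H199.PslAut.invTr_iff γ).1 h3, hA, hφ]⟩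

end red

/-- (R4) the row from the pieces; `hC` = row C (helper183) -/
theorem row_psl (hF : FieldStmt) (hG : GraphStmt)
    (hC : Row (fun S _ => ∃ (F : Type) (_ : Field F) (_ : Fintype F), 4 ≤ Fintype.card F ∧
      Nonempty (S ≃* Matrix.ProjectiveSpecialLinearGroup (Fin 2) F)))
    (hL : ∀ (F V G Ω ι : Type) [Field F] [Finite F] [AddCommGroup V] [Module F V] [Module.Finite F V] [Group G]
      [Finite G] [Finite Ω] [Nonempty Ω] [MulAction G Ω] [Finite ι] (N : Subgroup G) (κ : SLV F V →* G) (x : ι → G)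
      (r : ι → ℕ) (a : ι → V ≃ₗ[F] V) (_ : LinCov Ω N κ x r a) (_ : 3 ≤ finrank F V)
      (_ : ¬ (Nat.card F = 2 ∧ finrank F V = 4)) (_ : IH (Nat.card N)), False) :
    Row (fun S _ => IsPSL S) := by
  intro S _ _ hS hSn hPSL hExc hIH
  obtain ⟨F, hFi, hFt, n, hn2, hn4, ⟨eS⟩⟩ := hPSL
  by_cases hn : n = 2
  · subst hn
    exact hC S hS hSn ⟨F, hFi, hFt, hn4 rfl, ⟨eS⟩⟩ hExc hIH
  have hn3 : 3 ≤ n := by omega
  have hcard : Nat.card (Matrix.ProjectiveSpecialLinearGroup (Fin n) F) = Nat.card S := Nat.card_congr eS.symm.toEquiv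
  have hfin : Finite (Matrix.ProjectiveSpecialLinearGroup (Fin n) F) := Finite.of_equiv S eS.toEquiv
  have hP : IsSimpleGroup (Matrix.ProjectiveSpecialLinearGroup (Fin n) F) := isSimple_cgr0 eS hS
  have hPn : ¬ IsMulCommutative (Matrix.ProjectiveSpecialLinearGroup (Fin n) F) := by
    intro hc
    apply hSn
    constructor; constructor
    intro a b
    apply eS.injective
    rw [map_mul, map_mul]
    exact hc.is_comm.comm _ _
  have hPE : ¬ Exc (Matrix.ProjectiveSpecialLinearGroup (Fin n) F) := by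
    intro h
    apply hExc
    rcases h with ⟨⟨e⟩⟩ | ⟨⟨e⟩⟩ | ⟨⟨e⟩⟩
    · exact Or.inl ⟨eS.trans e⟩
    · exact Or.inr (Or.inl ⟨eS.trans e⟩)
    · exact Or.inr (Or.inr ⟨eS.trans e⟩)
  have hno4 : ¬ (Nat.card F = 2 ∧ finrank F (Fin n → F) = 4) := by
    rintro ⟨h1, h2⟩
    rw [finrank_fintype_fun_eq_card, Fintype.card_fin] at h2
    subst h2
    apply hPE
    rw [Nat.card_eq_fintype_card] at h1
    exact Or.inr (Or.inr (S0256.result h1))
  rw [← hcard] at hIH
  suffices h : RC (Matrix.ProjectiveSpecialLinearGroup (Fin n) F) from h.congr eS.symm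
  apply rc_of_noCov hP hPn
  intro G _ _ Ω _ _ _ N hE e ι _ x r h1 h2 h3
  by_cases hgr : ∃ i, ∃ (A : GL (Fin n) F) (σ : F ≃+* F),
      autE hE.norm e (x i) = H199.PslAut.Psi n F A * H199.PslAut.phi n F σ * H199.PslAut.iot n F
  · exact hG F n hn3 G Ω N hE e hPE hIH ι x r h1 h2 h3 hgr
  have hall : ∀ i, ∃ (A : GL (Fin n) F) (σ : F ≃+* F),
      autE hE.norm e (x i) = H199.PslAut.Psi n F A * H199.PslAut.phi n F σ := by
    intro i
    rcases aut_cases hn3 (autE hE.norm e (x i)) with h | h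
    · exact h
    · exact (hgr ⟨i, h⟩).elim
  by_cases hfi : ∃ i, ∃ (A : GL (Fin n) F) (σ : F ≃+* F),
      autE hE.norm e (x i) = H199.PslAut.Psi n F A * H199.PslAut.phi n F σ ∧ σ ≠ 1
  · exact hF F n hn3 G Ω N hE e hPE hIH ι x r h1 h2 h3 hall hfi
  have hlin : ∀ i, ∃ A : GL (Fin n) F, autE hE.norm e (x i) = H199.PslAut.Psi n F A := by
    intro i
    obtain ⟨A, σ, hA⟩ := hall i
    have hσ : σ = 1 := by
      by_contra hne
      exact hfi ⟨i, A, σ, hA, hne⟩
    refine ⟨A, ?_⟩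
    rw [hA, hσ, map_one, mul_one]
  obtain ⟨κ, a, hcov⟩ := exists_linCov hn3 hE e h1 h2 h3 hlin
  refine hL F (Fin n → F) G Ω ι N κ x r a hcov ?_ hno4 ?_
  · rw [finrank_fintype_fun_eq_card, Fintype.card_fin]; exact hn3
  · rw [Nat.card_congr e.toEquiv]; exact hIH

/-- the linear theorem (`hL` of `row_psl`) in the form with `autE`; the cover need not be minimal -/
theorem lin_noCov
    (hL : ∀ (F V G Ω ι : Type) [Field F] [Finite F] [AddCommGroup V] [Module F V] [Module.Finite F V] [Group G]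
      [Finite G] [Finite Ω] [Nonempty Ω] [MulAction G Ω] [Finite ι] (N : Subgroup G) (κ : SLV F V →* G) (x : ι → G)
      (r : ι → ℕ) (a : ι → V ≃ₗ[F] V) (_ : LinCov Ω N κ x r a) (_ : 3 ≤ finrank F V)
      (_ : ¬ (Nat.card F = 2 ∧ finrank F V = 4)) (_ : IH (Nat.card N)), False)
    {F G Ω ι : Type} [Field F] [Fintype F] {n : ℕ} [Group G] [Finite G] [Finite Ω] [Nonempty Ω] [MulAction G Ω]
    [Finite ι] {N : Subgroup G} (hn : 3 ≤ n) (hE : Env G Ω N)
    (e : N ≃* Matrix.ProjectiveSpecialLinearGroup (Fin n) F) (hne : ¬ (n = 4 ∧ Nat.card F = 2))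
    (hIH : IH (Nat.card (Matrix.ProjectiveSpecialLinearGroup (Fin n) F)))
    {x : ι → G} {r : ι → ℕ} (h1 : PF x r) (h2 : Cov Ω x)
    (hx : ∀ i, ∃ A : GL (Fin n) F, autE hE.norm e (x i) = H199.PslAut.Psi n F A) : False := by
  obtain ⟨s, hs1, hs2⟩ := h2.exists_min
  have h1' : PF (fun i : s => x i) (fun i : s => r i) :=
    ⟨fun i => h1.prime i, fun i j hij => Subtype.ext (h1.inj hij), fun i => h1.pow i, fun i => h1.ne i,
      fun i j => h1.comm i j⟩
  obtain ⟨κ, a, hcov⟩ := exists_linCov hn hE e h1' hs1 hs2 fun i => hx i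
  refine hL F (Fin n → F) G Ω s N κ _ _ a hcov ?_ ?_ ?_
  · rw [finrank_fintype_fun_eq_card, Fintype.card_fin]; exact hn
  · rw [finrank_fintype_fun_eq_card, Fintype.card_fin]
    rintro ⟨h, h'⟩
    exact hne ⟨h', h⟩
  · rw [Nat.card_congr e.toEquiv]; exact hIH

end Cfsg.Agent.H202.RC
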